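import Mathlib
import Cfsg.Agent.Lib.Mdl.Schur
import Cfsg.Agent.Lib.Schur.PcF
import Cfsg.Agent.Lib.Cover.PcLow

/-!
Sylow 2-subgroups of perfect double covers from polycyclic presentations with tails; running through
the elements of a group given by a polycyclic presentation.
-/

set_option autoImplicit false
set_option linter.style.haveILetI false

namespace H10.Std

open H54 H60 H15.Mdl Cfsg

/-- parity of the sum of the digits of `E` selected by the bits of `t` -/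
def parN (B m t E : ℕ) : ℕ := (∑ k ∈ Finset.range m, t / 2 ^ k % 2 * (E / (2 ^ B) ^ k % 2 ^ B)) % 2

theorem pow_mod_two {M : Type*} [Monoid M] {z : M} (h : z * z = 1) (n : ℕ) : z ^ (n % 2) = z ^ n := by
  conv_rhs => rw [← Nat.div_add_mod n 2, pow_add, pow_mul, pow_two, h, one_pow, one_mul]

theorem lin_par {A : Type*} [CommMonoid A] {ε : A} (h : ε * ε = 1) (B m t E : ℕ) :
    lin B m (fun k => ε ^ (t / 2 ^ k % 2)) E = ε ^ parN B m t E := by
  rw [parN, pow_mod_two h, lin, ← Finset.prod_pow_eq_pow_sum]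
  exact Finset.prod_congr rfl fun k _ => (pow_mul _ _ _).symm

theorem lin_mul {A : Type*} [CommMonoid A] (a b : ℕ → A) (B m E : ℕ) :
    lin B m (fun k => a k * b k) E = lin B m a E * lin B m b E := by
  rw [lin, lin, lin, ← Finset.prod_mul_distrib]
  exact Finset.prod_congr rfl fun k _ => mul_pow _ _ _

theorem evP_mul_central {Γ : Type*} [Group Γ] {γ c : ℕ → Γ} (hc : ∀ i, c i ∈ Subgroup.center Γ) (w : ℕ) :
    evP (fun i => γ i * c i) w = evP γ w * evP c w := by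
  unfold evP
  induction Nat.digits 64 w with
  | nil => simp
  | cons a l ih =>
    simp only [List.map_cons, List.prod_cons, ih]
    rw [mul_assoc, ← mul_assoc (c a), ← Subgroup.mem_center_iff.1 (hc a)]
    simp only [mul_assoc]

/-- the relations of the presentation hold up to the powers of `z` given by the bits of `t` -/
structure Gauge {Γ : Type*} [Group Γ] (d : Pc) (z : Γ) (t : ℕ) (γ : ℕ → Γ) : Prop where
  cen : z ∈ Subgroup.center Γ
  sq : z * z = 1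
  zero : γ 0 = 1
  rule : ∀ j, j ≤ d.n → ∀ i, 1 ≤ i → i ≤ j → d.lhs γ j i = evP γ (d.rhs j i) * z ^ (t / 2 ^ tri j i % 2)

abbrev A2 : Type := Multiplicative (ZMod 2)

theorem exists_gauge_aux {Γ Q : Type*} [Group Γ] [Finite Γ] [Group Q] {σ : Γ →* Q}
    (hσ : IsStemExtension σ) {z : Γ} (hz : ∀ x, σ x = 1 ↔ x = 1 ∨ x = z) (hz1 : z ≠ 1) {d : Pc}
    (hp : d.p = 2) (sh : d.Shape) {g h : ℕ → Q} (H : d.Holds g h) (M : ℕ) (hcard : Nat.card Q = d.p ^ d.n * M)
    (hM : Odd M) (hP : d.p ^ d.n ≤ Nat.card (Subgroup.closure (g '' {i | 1 ≤ i ∧ i ≤ d.n})))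
    {B m : ℕ} {s : ℕ → ℕ} {As Ws ts : List ℕ}
    (hW : ∀ γ η τ, Lifted d σ.ker γ η τ → ∀ χ : σ.ker →* A2, ∀ W ∈ Ws, lin B m (fun j => χ (τ j)) (s W) = 1)
    (hrow : ∀ a : ℕ → A2, (∀ W ∈ As ++ Ws, lin B m a (s W) = 1) → ∃ c : ℕ → A2, c 0 = 1 ∧
      ∀ j, j ≤ d.n → ∀ i, 1 ≤ i → i ≤ j → d.lhs c j i = evP c (d.rhs j i) * a (tri j i) ^ 1)
    (h1 : ∀ t ∈ ts, ∀ W ∈ Ws, parN B m t (s W) = 0)
    (h2 : ∀ f : ℕ → ℕ, (∀ A, f A < 2) → (∀ A ∈ As, f A = 0) ∨ ∃ t ∈ ts, ∀ A ∈ As, parN B m t (s A) = f A) :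
    ∃ t ∈ ts, ∃ γ : ℕ → Γ, (∀ i, σ (γ i) = g i) ∧ Gauge d z t γ := by
  classical
  obtain ⟨γ, η, τ, hl, hγ⟩ := exists_lifted hσ.1 hσ.2.1 H
  have zk : z ∈ σ.ker := (hz z).2 (Or.inr rfl)
  have zc : z ∈ Subgroup.center Γ := hσ.2.1 zk
  have z2 : z * z = 1 := ((hz _).1 (mul_mem zk zk)).resolve_right fun e => hz1 (by simpa using e)
  let ε : A2 := Multiplicative.ofAdd 1
  have ε2 : ε * ε = 1 := by decide
  have hk : ∀ x : σ.ker, (x : Γ) = 1 ∨ (x : Γ) = z := fun x => (hz x).1 x.2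
  let χ : σ.ker →* A2 := MonoidHom.mk' (fun x => if (x : Γ) = 1 then 1 else ε) fun x y => by
    rcases hk x with a | a <;> rcases hk y with b | b <;> simp [a, b, hz1, z2, ε2]
  let ι : A2 →* Γ := MonoidHom.mk' (fun x => if x = 1 then 1 else z) fun x y => by
    have : ∀ x : A2, x = 1 ∨ x = ε := by decide
    have e : ε ≠ 1 := by decide
    rcases this x with rfl | rfl <;> rcases this y with rfl | rfl <;> simp [e, z2, ε2]
  have ιε : ι ε = z := by
    show (if ε = 1 then 1 else z) = z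
    exact if_neg (by decide)
  have ιχ : ∀ x : σ.ker, ι (χ x) = x := fun x => by
    rcases hk x with a | a
    · have : χ x = 1 := if_pos a
      rw [this, map_one, a]
    · have : χ x = ε := if_neg (a ▸ hz1)
      rw [this, ιε, a]
  have ιk : ∀ x, ι x ∈ σ.ker := fun x => by
    show (if x = 1 then 1 else z) ∈ _
    split_ifs
    exacts [one_mem _, zk]
  have val : ∀ x : A2, ε ^ (Multiplicative.toAdd x).val = x := by decide
  rcases h2 (fun A => (Multiplicative.toAdd (lin B m (fun j => χ (τ j)) (s A))).val)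
    (fun A => ZMod.val_lt _) with h3 | ⟨t, ht, h3⟩
  · exfalso
    obtain ⟨c, c0, hc⟩ := hrow (fun j => χ (τ j)) fun W hW' => by
      rcases List.mem_append.1 hW' with a | a
      · rw [← val (lin _ _ _ _), h3 W a, pow_zero]
      · exact hW γ η τ hl χ W a
    have := core hσ (by omega) sh hl M hcard (by simpa only [hγ] using hP) χ c c0 1 hc ⟨z, zk⟩
    rw [show χ ⟨z, zk⟩ = ε from if_neg hz1, mul_one, ← pow_mod_two ε2, Nat.odd_iff.1 hM] at this
    exact absurd this (by decide)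
  obtain ⟨c, c0, hc⟩ := hrow (fun j => χ (τ j) * ε ^ (t / 2 ^ j % 2)) fun W hW' => by
    rw [lin_mul, lin_par ε2]
    rcases List.mem_append.1 hW' with a | a
    · rw [h3 W a, val]
      generalize lin B m (fun j => χ (τ j)) (s W) = x
      revert x; decide
    · rw [hW γ η τ hl χ W a, h1 t ht W a, pow_zero, mul_one]
  have cc : ∀ i, ι (c i) ∈ Subgroup.center Γ := fun i => hσ.2.1 (ιk _)
  refine ⟨t, ht, fun i => γ i * ι (c i), fun i => ?_, zc, z2, by simp [hl.zero, c0], fun j hj i hi hij => ?_⟩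
  · rw [map_mul, hγ, ιk (c i), mul_one]
  · have e1 : d.lhs (fun i => γ i * ι (c i)) j i = d.lhs γ j i * ι (d.lhs c j i) := by
      unfold Pc.lhs
      split_ifs
      · rw [map_pow]; exact Commute.mul_pow (Subgroup.mem_center_iff.1 (cc i) _) _
      · rw [map_mul, mul_assoc, ← mul_assoc (ι (c j)), ← Subgroup.mem_center_iff.1 (cc j)]
        simp only [mul_assoc]
    have t2 : (τ (tri j i) : Γ) * τ (tri j i) = 1 := by
      rcases hk (τ (tri j i)) with a | a <;> rw [a]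
      exacts [mul_one _, z2]
    rw [e1, hl.rule j hj i hij, hc j hj i hi hij, pow_one, map_mul, map_mul, map_pow, ιε, ιχ, map_evP,
      evP_mul_central cc, mul_assoc, ← mul_assoc (τ _ : Γ), hl.comm, mul_assoc, ← mul_assoc (τ _ : Γ), t2,
      one_mul, mul_assoc]

theorem exists_gaugeF {Γ Q : Type*} [Group Γ] [Finite Γ] [Group Q] {σ : Γ →* Q}
    (hσ : IsStemExtension σ) {z : Γ} (hz : ∀ x, σ x = 1 ↔ x = 1 ∨ x = z) (hz1 : z ≠ 1) {d : Pc} {e : Lp}
    {S : ℕ} (hf : fmtOk d e S = true) (hF : fmtF d e = true) (hp : d.p = 2) (hq : e.q = 2) (hN : e.N = 1)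
    {g h : ℕ → Q} (H : d.Holds g h) (M : ℕ) (hcard : Nat.card Q = d.p ^ d.n * M)
    (hM : Odd M) (hP : d.p ^ d.n ≤ Nat.card (Subgroup.closure (g '' {i | 1 ≤ i ∧ i ≤ d.n})))
    {As Ws Cs Xs ts : List ℕ} (hS : len (As ++ Ws) ≤ S) (hW : CertifiedF d e Ws)
    (hC : nth (Cs.map (sp d e)) 0 = 0) (hr : RowsF d e (As ++ Ws) Cs Xs (d.n + 1))
    (h1 : ∀ t ∈ ts, ∀ W ∈ Ws, parN d.B e.m t (sp d e W) = 0)
    (h2 : ∀ f : ℕ → ℕ, (∀ A, f A < 2) →
      (∀ A ∈ As, f A = 0) ∨ ∃ t ∈ ts, ∀ A ∈ As, parN d.B e.m t (sp d e A) = f A) :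
    ∃ t ∈ ts, ∃ γ : ℕ → Γ, (∀ i, σ (γ i) = g i) ∧ Gauge d z t γ := by
  obtain ⟨ok, sh, hq1, hb, hb'⟩ := fmtOk_spec hf
  have hqA : ∀ y : A2, y ^ e.q = 1 := by rw [hq]; decide
  refine exists_gauge_aux hσ hz hz1 hp sh H M hcard hM hP (fun γ η τ hl χ W hW' => ?_)
    (fun a ha => ⟨fun x => lin d.B e.m a (nth (Cs.map (sp d e)) x), by simp [hC, lin],
      fun j hj i hi hij => ?_⟩) h1 h2
  · obtain ⟨r, r1, r2⟩ := hW W hW'
    exact relsOkF_spec ok hl _ hqA hq1 hF hb r r1 W r2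
  · obtain ⟨lo, k, a1, a2, a3⟩ := hr j (by omega) (by omega)
    exact hN ▸ rowsOkF_spec _ hqA hq1 hF (len_eq (As ++ Ws) ▸ hS) hb' ha a3 j a1 a2 i hi hij

theorem exists_gauge {Γ Q : Type*} [Group Γ] [Finite Γ] [Group Q] {σ : Γ →* Q}
    (hσ : IsStemExtension σ) {z : Γ} (hz : ∀ x, σ x = 1 ↔ x = 1 ∨ x = z) (hz1 : z ≠ 1) {d : Pc} {e : Lp}
    {S : ℕ} (hf : fmtOk d e S = true) (hp : d.p = 2) (hq : e.q = 2) (hN : e.N = 1)
    {g h : ℕ → Q} (H : d.Holds g h) (M : ℕ) (hcard : Nat.card Q = d.p ^ d.n * M)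
    (hM : Odd M) (hP : d.p ^ d.n ≤ Nat.card (Subgroup.closure (g '' {i | 1 ≤ i ∧ i ≤ d.n})))
    {As Ws Cs Xs ts : List ℕ} (hS : len (As ++ Ws) ≤ S) (hW : Certified d e Ws)
    (hC : nth Cs 0 = 0) (hr : RowsDone d e (As ++ Ws) Cs Xs)
    (h1 : ∀ t ∈ ts, ∀ W ∈ Ws, parN e.b e.m t W = 0)
    (h2 : ∀ f : ℕ → ℕ, (∀ A, f A < 2) →
      (∀ A ∈ As, f A = 0) ∨ ∃ t ∈ ts, ∀ A ∈ As, parN e.b e.m t A = f A) :
    ∃ t ∈ ts, ∃ γ : ℕ → Γ, (∀ i, σ (γ i) = g i) ∧ Gauge d z t γ := by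
  obtain ⟨ok, sh, hq1, hb, hb'⟩ := fmtOk_spec hf
  have hqA : ∀ y : A2, y ^ e.q = 1 := by rw [hq]; decide
  refine exists_gauge_aux (s := id) hσ hz hz1 hp sh H M hcard hM hP (fun γ η τ hl χ W hW' => ?_)
    (fun a ha => ⟨fun x => lin e.b e.m a (nth Cs x), by simp [hC, lin],
      fun j hj i hi hij => ?_⟩) h1 h2
  · obtain ⟨r, r1, r2⟩ := hW W hW'
    exact relsOk_spec ok hl _ hqA hq1 hb r r1 W r2
  · obtain ⟨lo, k, a1, a2, a3⟩ := hr j (by omega) hj
    exact hN ▸ rowsOk_spec _ hqA hq1 (len_eq (As ++ Ws) ▸ hS) hb' ha a3 j a1 a2 i hi hij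

/-- the words `u` and `v` differ by `z ^ b` -/
noncomputable def colEq (d : Pc) (fuel m t u v b : ℕ) : Bool :=
  force d.n fun n => force d.T fun T => force d.sl fun sl => force d.sm fun sm => force d.B fun B =>
  force d.rep fun rep => force d.pw fun pw => force d.pm fun pm =>
    col n T sl sm B rep pw pm (fun nf E => col n T sl sm B rep pw pm (fun nf' E' =>
      band (Nat.beq nf nf') (band (Nat.ble (Nat.succ E') (Nat.pow (Nat.pow 2 B) m))
        (Nat.beq (parN B m t E') b))) fuel 0 v E) fuel 0 u 0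

/-- the trivial rules -/
def zeroOk (d : Pc) (t : ℕ) : Prop := ∀ j, j < d.n + 1 → d.rhs j 0 = j ∧ t / 2 ^ tri j 0 % 2 = 0

instance instDecZeroOk (d : Pc) (t : ℕ) : Decidable (zeroOk d t) :=
  inferInstanceAs (Decidable (∀ j, j < d.n + 1 → _ ∧ _))

theorem pk_par {Γ : Type*} [Group Γ] {Z : Subgroup Γ} {z : Γ} (h : z * z = 1) {B m t E c : ℕ} {τ : ℕ → Z}
    (hτ : ∀ k, (τ k : Γ) = z ^ (t / 2 ^ k % 2)) {x : Z} (p : Pk B τ E c x) (hc : c < 2 ^ B)
    (hE : E < (2 ^ B) ^ m) : (x : Γ) = z ^ parN B m t E := by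
  obtain ⟨l, h1, h2, rfl⟩ := p
  have q : Pk B (fun k => Multiplicative.ofAdd (t / 2 ^ k % 2)) E c _ := ⟨l, h1, h2, rfl⟩
  have e := q.eq_lin hc hE
  have e1 : ∀ l : List ℕ, (((l.map τ).prod : Z) : Γ) =
      z ^ Multiplicative.toAdd (l.map fun k => Multiplicative.ofAdd (t / 2 ^ k % 2)).prod := fun l => by
    induction l with
    | nil => simp
    | cons a l ih => simp only [List.map_cons, List.prod_cons, Subgroup.coe_mul, ih, hτ, toAdd_mul,
        toAdd_ofAdd, pow_add]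
  rw [e1, e, parN, pow_mod_two h, lin, toAdd_prod]
  simp only [toAdd_pow, toAdd_ofAdd, smul_eq_mul, mul_comm]

theorem Gauge.eq_of_col {Γ : Type*} [Group Γ] {d : Pc} {z : Γ} {t : ℕ} {γ : ℕ → Γ} (G : Gauge d z t γ)
    (ok : d.Ok) (h0 : zeroOk d t) {fuel m u v b : ℕ} (hf : fuel + fuel < 2 ^ d.B)
    (h : colEq d fuel m t u v b = true) : evP γ u = evP γ v * z ^ b := by
  have ok' : ({d with nf := 0} : Pc).Ok := ⟨ok.1, ok.2, ok.3, ok.4, ok.5, ok.6⟩
  have L : Lifted {d with nf := 0} (Subgroup.center Γ) γ γ fun k => ⟨z ^ (t / 2 ^ k % 2), pow_mem G.cen _⟩ :=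
    ⟨le_rfl, G.zero, fun j hj i hij => by
      rcases Nat.eq_zero_or_pos i with rfl | hi
      · obtain ⟨a, b⟩ := h0 j (Nat.lt_succ_of_le hj)
        show d.lhs γ j 0 = evP γ (d.rhs j 0) * z ^ (t / 2 ^ tri j 0 % 2)
        rw [a, b, pow_zero, mul_one, H19.Cov.evP_single G.zero (hj.trans_lt ok.n_lt), Pc.lhs]
        split_ifs with c
        · rw [← c, G.zero, one_pow]
        · rw [G.zero, mul_one]
      · exact G.rule j hj i hi hij, fun f hf => absurd hf (Nat.not_lt_zero _)⟩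
  simp only [colEq, force_eq] at h
  obtain ⟨nf, E, x, h, p1, e1⟩ := col_spec ok' L _ _ _ _ _ h
  obtain ⟨nf', E', y, h, p2, e2⟩ := col_spec ok' L _ _ _ _ _ h
  simp only [band_eq_true, Nat.beq_eq, Nat.ble_eq, zero_add] at h
  obtain ⟨rfl, a, rfl⟩ := h
  rw [evR_zero, one_mul] at e1 e2
  have e3 := pk_par G.sq (fun _ => rfl) (p1.add p2) hf a
  obtain ⟨l, -, -, rfl⟩ := p2
  have y2 : ∀ l : List ℕ, ∃ k : ℕ, (((l.map fun k => (⟨z ^ (t / 2 ^ k % 2), pow_mem G.cen _⟩ :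
      Subgroup.center Γ)).prod : Subgroup.center Γ) : Γ) = z ^ k := fun l => by
    induction l with
    | nil => exact ⟨0, by simp⟩
    | cons a l ih =>
      obtain ⟨k, hk⟩ := ih
      exact ⟨_, by rw [List.map_cons, List.prod_cons, Subgroup.coe_mul, hk, ← pow_add]⟩
  obtain ⟨k, hk⟩ := y2 l
  rw [Subgroup.coe_mul, hk] at e3
  rw [hk] at e2
  rw [e1, e2, mul_assoc, ← e3, ← Subgroup.mem_center_iff.1 x.2, ← mul_assoc (z ^ k), ← pow_add, ← two_mul,
    pow_mul, pow_two, G.sq, one_pow, one_mul]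

section Mdl

variable {o : Ops} {G : Type*} [Group G] {R : G → ℕ → Prop}

theorem nth_eq_get : ∀ (l : List ℕ) (i : ℕ) (hi : i < l.length), nth l i = l[i] := by
  intro l
  induction l with
  | nil => intro i hi; simp at hi
  | cons a l ih =>
    intro i hi
    cases i with
    | zero => rfl
    | succ i => exact ih i (by simpa using hi)

theorem holds_of_mdl (h : Sound o R) {d : Pc} (ok : d.Ok)
    {gl hl : List ℕ} (vg : AllIn R ⊤ gl) (vh : AllIn R ⊤ hl) (h0 : nth gl 0 = o.one)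
    (lg : len gl = d.n + 1) (lh : len hl = d.nf)
    (h1 : rulesOk (actL o gl) [o.one] d 0 (d.n + 1) = true)
    (h2 : fusOk (actL o gl) (actL o hl) [o.one] d = true) :
    ∃ g k : ℕ → G, d.Holds g k ∧ (∀ i, i ≤ d.n → R (g i) (nth gl i)) ∧
      grp R gl = Subgroup.closure (g '' {i | 1 ≤ i ∧ i ≤ d.n}) := by
  classical
  rw [len_eq] at lg lh
  let pt : ℕ → G := fun x => if hx : ∃ g, R g x then hx.choose else 1
  have hpt : ∀ {g x}, R g x → pt x = g := fun {g x} r => by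
    have hx : ∃ g, R g x := ⟨g, r⟩
    show dite _ _ _ = _
    rw [dif_pos hx]; exact h.inj hx.choose_spec r
  have act : ∀ {l : List ℕ}, AllIn R ⊤ l → ∀ i, i < l.length → ∀ x, (∃ g, R g x) →
      (∃ g, R g (actL o l i x)) ∧ pt (nth l i) • pt x = pt (actL o l i x) := by
    rintro l v i hi x ⟨g, r⟩
    obtain ⟨u, -, ru⟩ := v _ (nth_mem l i hi)
    exact ⟨⟨_, h.mul ru r⟩, by rw [hpt ru, hpt r]; exact (hpt (h.mul ru r)).symm⟩
  have A : Acts pt (fun x => ∃ g, R g x) (fun i => pt (nth gl i)) (actL o gl) d.n :=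
    fun i hi => act vg i (by omega)
  have g0 : (fun i => pt (nth gl i)) 0 = 1 := hpt (h0 ▸ h.one)
  have hV : ∀ b ∈ [o.one], ∃ g, R g b := fun b hb => ⟨1, List.mem_singleton.1 hb ▸ h.one⟩
  have hb : ∀ x : G, (∀ b ∈ [o.one], x • pt b = pt b) → MonoidHom.id G x = 1 := fun x hx =>
    mul_eq_right.1 (hx _ List.mem_cons_self)
  have rg : ∀ i, i ≤ d.n → R (pt (nth gl i)) (nth gl i) := fun i hi => by
    obtain ⟨u, -, ru⟩ := vg _ (nth_mem gl i (by omega))
    rwa [hpt ru]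
  refine ⟨fun i => pt (nth gl i), fun i => pt (nth hl i), ⟨g0, fun j hj =>
    rulesOk_spec (MonoidHom.id G) ok A g0 hV hb h1 j (Nat.zero_le _) (by omega) hj,
    fusOk_spec (MonoidHom.id G) A g0 (fun i hi => act vh i (by omega)) hV hb h2⟩, rg,
    le_antisymm (grp_le_of fun s hs g r => ?_) ?_⟩
  · obtain ⟨i, hi, rfl⟩ := List.getElem_of_mem hs
    rw [← nth_eq_get gl i hi] at r
    rcases Nat.eq_zero_or_pos i with rfl | hp
    · rw [h.inj r (h0 ▸ h.one)]; exact Subgroup.one_mem _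
    · exact Subgroup.subset_closure ⟨i, ⟨hp, by omega⟩, hpt r⟩
  · rw [Subgroup.closure_le]
    rintro _ ⟨i, hi, rfl⟩
    exact mem_grp (nth_mem gl i (by have := hi.2; omega)) (rg i hi.2)

/-- run through the products of the sublists of `gs` -/
noncomputable def enumA (o : Ops) (f : ℕ → Bool) (gs : List ℕ) : ℕ → Bool :=
  List.rec (motive := fun _ => ℕ → Bool) f
    (fun g _ ih a => band (ih a) (force (o.mul a g) ih)) gs

theorem pc_step {d : Pc} (hp : d.p = 2) (sh : d.Shape) {g : ℕ → G} (g0 : g 0 = 1)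
    (hr : ∀ j, j ≤ d.n → ∀ i, i ≤ j → d.lhs g j i = evP g (d.rhs j i)) {t : ℕ} (ht : t + 1 ≤ d.n) {y : G}
    (hy : y ∈ Subgroup.closure (g '' {i | t < i ∧ i ≤ d.n})) :
    y ∈ Subgroup.closure (g '' {i | t + 1 < i ∧ i ≤ d.n}) ∨
      ∃ y' ∈ Subgroup.closure (g '' {i | t + 1 < i ∧ i ≤ d.n}), y = g (t + 1) * y' := by
  have e := H19.Cov.closure_step g {i | i ≤ d.n} (t := t) ht
  have hmem : ∀ x, t + 1 < x ∧ x ≤ d.n → g x ∈ Subgroup.closure (g '' {i | t + 1 < i ∧ i ≤ d.n}) :=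
    fun x hx => Subgroup.subset_closure ⟨x, hx, rfl⟩
  obtain ⟨m, hm, y', hy', rfl⟩ := H19.Cov.exists_pow_mul (p := 2) (x := g (t + 1)) (by norm_num)
    (D := Subgroup.closure (g '' {i | t + 1 < i ∧ i ≤ d.n})) (by
      have e1 := hr _ ht _ le_rfl
      rw [Pc.lhs, if_pos rfl, hp] at e1
      rw [e1]
      exact evP_mem fun x hx => hmem x ((sh _ ht _ (by omega) le_rfl).1 rfl x hx)) (by
      have : Subgroup.closure (g '' {i | t + 1 < i ∧ i ≤ d.n}) ≤ (Subgroup.closure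
          (g '' {i | t + 1 < i ∧ i ≤ d.n})).comap (MulAut.conj (g (t + 1))⁻¹).toMonoidHom := by
        rw [Subgroup.closure_le]
        rintro _ ⟨j, ⟨hj1, hj2⟩, rfl⟩
        have e1 := hr j hj2 (t + 1) hj1.le
        obtain ⟨s1, s2⟩ := (sh j hj2 (t + 1) (by omega) hj1.le).2 hj1.ne
        rw [Pc.lhs, if_neg hj1.ne, evP_step g0, s1] at e1
        show (g (t + 1))⁻¹ * g j * (g (t + 1))⁻¹⁻¹ ∈ Subgroup.closure (g '' {i | t + 1 < i ∧ i ≤ d.n})
        rw [inv_inv, mul_assoc, e1, inv_mul_cancel_left]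
        exact evP_mem fun x hx => hmem x (s2 x hx)
      intro k hk
      simpa using this hk) (e ▸ hy)
  interval_cases m
  · exact Or.inl (by simpa using hy')
  · exact Or.inr ⟨y', hy', by rw [pow_one]⟩

theorem enumA_spec (h : Sound o R) {d : Pc} (hp : d.p = 2) (sh : d.Shape) {g : ℕ → G} (g0 : g 0 = 1)
    (hr : ∀ j, j ≤ d.n → ∀ i, i ≤ j → d.lhs g j i = evP g (d.rhs j i)) {gl : List ℕ}
    (rg : ∀ i, i ≤ d.n → R (g i) (nth gl i)) {f : ℕ → Bool} : ∀ (s t : ℕ), t + s = d.n → ∀ x p, R x p →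
      enumA o f ((List.range' (t + 1) s).map (nth gl)) p = true →
      ∀ y ∈ Subgroup.closure (g '' {i | t < i ∧ i ≤ d.n}), ∃ q, R (x * y) q ∧ f q = true := by
  intro s
  induction s with
  | zero =>
    intro t ht x p r c y hy
    have : {i | t < i ∧ i ≤ d.n} = ∅ := by ext i; simp; omega
    rw [this, Set.image_empty, Subgroup.closure_empty, Subgroup.mem_bot] at hy
    exact ⟨p, by rw [hy, mul_one]; exact r, c⟩
  | succ s ih =>
    intro t ht x p r c y hy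
    have c' : band (enumA o f ((List.range' (t + 1 + 1) s).map (nth gl)) p)
      (enumA o f ((List.range' (t + 1 + 1) s).map (nth gl)) (o.mul p (nth gl (t + 1)))) = true := c
    rw [band_eq_true] at c'
    rcases pc_step hp sh g0 hr (by omega) hy with a | ⟨y', a, rfl⟩
    · exact ih _ (by omega) x p r c'.1 y a
    · rw [← mul_assoc]
      exact ih _ (by omega) _ _ (h.mul r (rg _ (by omega))) c'.2 y' a

/-- product of the letters of a packed word (five bits per letter, last letter first) -/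
noncomputable def pword (o : Ops) (S : List ℕ) (fuel : ℕ) : ℕ → ℕ → ℕ :=
  Nat.rec (motive := fun _ => ℕ → ℕ → ℕ) (fun _ a => a)
    (fun _ ih w a => sel (Nat.beq w 0) a (force (o.mul (nth S (Nat.land w 31)) a) fun b =>
      force (Nat.shiftRight w 5) fun w' => ih w' b)) fuel

theorem in_pword (h : Sound o R) {H : Subgroup G} {S : List ℕ} (v : AllIn R H S) (hS : S.length = 32) :
    ∀ fuel w a, In R H a → In R H (pword o S fuel w a) := by
  intro fuel
  induction fuel with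
  | zero => exact fun _ _ r => r
  | succ n ih =>
    intro w a r
    show In R H (sel (Nat.beq w 0) a (pword o S n (Nat.shiftRight w 5) (o.mul (nth S (Nat.land w 31)) a)))
    rw [sel_eq]
    split_ifs
    · exact r
    · exact ih _ _ (In.mul h (v _ (nth_mem _ _ (hS ▸ Nat.lt_succ_of_le Nat.and_le_right))) r)

theorem isConj_of_pword (h : Sound o R) {S : List ℕ} (v : AllIn R ⊤ S) (hS : S.length = 32)
    {x y : G} {p q : ℕ} (rx : R x p) (ry : R y q) {fuel w : ℕ}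
    (c : o.cj (pword o S fuel w o.one) p q = true) : IsConj x y := by
  obtain ⟨u, -, ru⟩ := in_pword h v hS fuel w _ (in_one h _)
  exact isConj_iff.2 ⟨u, mul_inv_eq_iff_eq_mul.2 ((h.cj_iff ru rx ry).1 c)⟩

theorem R_evP (h : Sound o R) {g : ℕ → G} {gl : List ℕ} {n : ℕ} (rg : ∀ i, i ≤ n → R (g i) (nth gl i))
    {w : ℕ} (hw : ∀ i ∈ Nat.digits 64 w, i ≤ n) : R (evP g w) (o.word gl (Nat.digits 64 w)) := by
  unfold evP
  generalize Nat.digits 64 w = l at hw
  induction l with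
  | nil => exact h.one
  | cons a l ih =>
    exact h.mul (rg a (hw a List.mem_cons_self)) (ih fun i hi => hw i (List.mem_cons_of_mem _ hi))

end Mdl

end H10.Std
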