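import Mathlib
import Cfsg.Agent.Lib.Std.Fus
import Cfsg.Agent.Lib.Std.RuData

/-! A standard subgroup which is a double cover of the Rudvalis group. -/

set_option autoImplicit false
set_option maxRecDepth 100000
set_option exponentiation.threshold 4000

namespace H10.Std

open Cfsg Subgroup

section

variable {L G : Type*} [Group L] [Group G]

theorem Intr.normal_of [Finite G] {f : L →* G} {z0 : L} (h : Intr f z0)
    (hout : ∀ α : MulAut L, ∃ b, ∀ a, α a = b * a * b⁻¹) (hO : oddCore G = ⊥)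
    (hA : ∀ b, b * b = 1 → Fus f z0 b → b = z0)
    (hB : ∀ a, a * a = z0 → ∃ u v l y, u * a = a * u ∧ v * a = a * v ∧ y = u * v * u⁻¹ * v⁻¹ ∧ y ≠ 1 ∧
      y * y = 1 ∧ l * a * l⁻¹ = a * y) : f.range.Normal := by
  by_contra hn
  obtain ⟨g, g1, g2⟩ := h.exists_conj hO hn
  obtain ⟨k, hk, a, e⟩ := h.dec hout g2
  have t2 : k * f a * (k * f a) = 1 := by
    rw [← e]
    calc _ = g * (f z0 * f z0) * g⁻¹ := by group
      _ = 1 := by rw [h.z_sq]; group
  rcases h.inv_dec hk t2 with ⟨b, e1, b2⟩ | ⟨-, a2⟩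
  · exact g1 (by rw [e, e1, hA b b2 ⟨g, e.trans e1⟩])
  obtain ⟨u, v, l, y, hu, hv, hy, y1, y2, hl⟩ := hB a a2
  have c : ∀ x : L, x * a = a * x → f x * (g * f z0 * g⁻¹) = g * f z0 * g⁻¹ * f x := fun x hx => by
    rw [e, ← mul_assoc, KK.comm hk, mul_assoc, mul_assoc, ← map_mul, ← map_mul, hx]
  obtain ⟨b, hb, b2⟩ := h.comm_conj hout (c u hu) (c v hv) (y := f y)
    (by rw [hy, map_mul, map_mul, map_mul, map_inv, map_inv]) (by rw [← map_mul, y2, map_one])
  have e1 : f l * (g * f z0 * g⁻¹) * (f l)⁻¹ = g * f z0 * g⁻¹ * f y := by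
    rw [e, ← mul_assoc, KK.comm hk, mul_assoc k, mul_assoc k, mul_assoc k, ← map_inv, ← map_mul, ← map_mul,
      ← map_mul, hl]
  have e2 := hA (z0 * b) (by rw [mul_assoc, ← mul_assoc b, h.z0_comm b, mul_assoc, b2, mul_one, h.z0_sq])
    ⟨g⁻¹ * f l * g, by
      rw [map_mul, ← hb]
      calc _ = g⁻¹ * (f l * (g * f z0 * g⁻¹) * (f l)⁻¹) * g := by group
        _ = _ := by rw [e1]; group⟩
  rw [mul_eq_left] at e2
  rw [e2, map_one] at hb
  refine y1 (h.inj ?_)
  rw [map_one]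
  calc f y = g * (g⁻¹ * f y * g) * g⁻¹ := by group
    _ = 1 := by rw [hb]; group

theorem lift_conj {σ : L →* G} (hs : Function.Surjective σ) {z : L} (hz : ∀ x, σ x = 1 ↔ x = 1 ∨ x = z)
    {x a : L} (h : IsConj (σ x) (σ a)) : ∃ l, l * x * l⁻¹ = a ∨ l * x * l⁻¹ = z * a := by
  obtain ⟨c, hc⟩ := isConj_iff.1 h
  obtain ⟨l, rfl⟩ := hs c
  refine ⟨l, ((hz (l * x * l⁻¹ * a⁻¹)).1 (by simp [hc])).imp mul_inv_eq_one.1 mul_inv_eq_iff_eq_mul.1⟩

theorem sq_conj {l x a : L} (h : l * x * l⁻¹ = a) : a * a = l * (x * x) * l⁻¹ := by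
  rw [← h]; group

theorem isPGroup_zpowers {x : G} (h : x * x = 1) : IsPGroup 2 (zpowers x) := by
  rintro ⟨_, k, rfl⟩
  refine ⟨1, Subtype.ext ?_⟩
  show (x ^ k) ^ 2 ^ 1 = 1
  rw [← zpow_natCast, ← zpow_mul, mul_comm, zpow_mul, zpow_natCast, pow_one, pow_two, h, one_zpow]

theorem exists_center_two (h : Nat.card (center L) = 2) :
    ∃ z : L, (∀ a : L, a ∈ center L ↔ a = 1 ∨ a = z) ∧ orderOf z = 2 := by
  obtain ⟨z, hz, e⟩ := (Nat.card_eq_two_iff' (1 : center L)).1 h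
  refine ⟨z, fun a => ⟨fun ha => ?_, ?_⟩, ?_⟩
  · by_cases h1 : a = 1
    · exact Or.inl h1
    · exact Or.inr (congrArg Subtype.val (e ⟨a, ha⟩ fun c => h1 (congrArg Subtype.val c)))
  · rintro (rfl | rfl)
    exacts [one_mem _, z.2]
  · rw [orderOf_coe]
    haveI := Fact.mk Nat.prime_two
    exact orderOf_eq_prime (h ▸ pow_card_eq_one') hz

end

namespace Ru

open H54 H60 H15.Mdl H15.RuM

theorem v_lt : AllIn R ⊤ lt :=
  have v := (vG.of_wordsChk snd _ _ d2_w.1).append (vG.of_wordsChk snd _ _ d2_w.2)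
  v.append (v.of_wordsChk snd _ _ xl_w)

theorem cls_spec {a b x : Gb} (ra : R a cA) (rb : R b cB) {p : ℕ} (r : R x p) {fl : Bool}
    (c : cls lt p fl = true) : IsConj x a ∨ fl = true ∧ IsConj x b := by
  simp only [cls, force_eq, sel_eq, band_eq_true] at c
  split_ifs at c
  · exact Or.inl (isConj_of_pword snd v_lt rfl r ra c)
  · rw [band_eq_true] at c
    exact Or.inr ⟨c.1, isConj_of_pword snd v_lt rfl r rb c.2⟩

theorem exists_syl2 : ∃ g k : ℕ → Gb, d2.Holds g k ∧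
    Nat.card (closure (g '' {i | 1 ≤ i ∧ i ≤ d2.n})) = 2 ^ 14 ∧ g 14 ≠ 1 ∧
    ∀ x ∈ closure (g '' {i | 1 ≤ i ∧ i ≤ d2.n}),
      (x * x = 1 → x = 1 ∨ IsConj x (g 14) ∨ IsConj x (evP g 2126211)) ∧
      (x * x * (x * x) = 1 → x * x = 1 ∨ IsConj (x * x) (g 14)) ∧
      (x * g 1 = g 1 * x → x * g 2 = g 2 * x → x * g 3 = g 3 * x → x = 1 ∨ x = g 14) := by
  have v2 := vG.of_wordsChk snd _ _ d2_w.1
  obtain ⟨ok, sh, -⟩ := fmtOk_spec d2a_fmt
  obtain ⟨g, k, H, rg, e⟩ := holds_of_mdl snd ok v2 (vG.of_wordsChk snd _ _ d2_w.2) (by decide +kernel)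
    (by decide +kernel) (by decide +kernel) d2_rules d2_fus
  have ra : R (g 14) cA := snd.tr (rg 14 le_rfl) (by decide +kernel)
  have rb : R (evP g 2126211) cB := snd.tr (R_evP snd rg (by decide +kernel)) (by decide +kernel)
  refine ⟨g, k, H, le_antisymm ?_ ?_, snd.ne_of ra snd.one (by decide +kernel), fun x hx => ?_⟩
  · have := relIndex_pc_le ok.p_pos sh g H.zero ⊥ bot_le fun j hj i _ hij =>
      ⟨1, one_mem _, by rw [mul_one]; exact H.rule j hj i hij⟩
    rwa [sup_bot_eq, relIndex_bot_left] at this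
  · have v := v2.grp_self.of_wordsChk snd _ _ P2_w.1
    exact e ▸ (Nat.mul_le_mul_left 128 (le_orb v.grp_self r2_inj le_rfl r2_tr)).trans (le_card_grp D act28 snd
      v2.grp_self v (injL_spec q2_inj).1 (injL_spec q2_inj).2 P2_w.2 q2_tr)
  obtain ⟨q, r, c⟩ := enumA_spec snd rfl sh H.zero H.rule rg 14 0 rfl 1 _ snd.one chk_all x hx
  rw [one_mul] at r
  have r2 := snd.mul r r
  simp only [chk, force_eq, sel_eq, band_eq_true, bor_eq_true, bimp_eq_true, snd.isOne_iff r,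
    snd.isOne_iff r2, snd.isOne_iff (snd.mul r2 r2), snd.eqv_iff r ra, snd.comm_iff r (rg 1 (by decide)),
    snd.comm_iff r (rg 2 (by decide)), snd.comm_iff r (rg 3 (by decide))] at c
  refine ⟨fun h => ?_, fun h => ?_, fun a b d => c.2 b a d⟩
  · rw [if_pos ((snd.isOne_iff r2).2 h), bor_eq_true, snd.isOne_iff r] at c
    exact c.1.imp_right fun d => (cls_spec ra rb r d).imp_right And.right
  · by_cases h1 : x * x = 1
    · exact Or.inl h1
    · rw [if_neg (mt (snd.isOne_iff r2).1 h1), bimp_eq_true, snd.isOne_iff (snd.mul r2 r2)] at c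
      exact Or.inr ((cls_spec ra rb r2 (c.1 h)).resolve_right fun d => Bool.noConfusion d.1)

variable {L G : Type*} [Group L] [Finite L] [Group G] [Finite G]

theorem normal {f : L →* G} {z : L} (h : Intr f z) (hout : ∀ α : MulAut L, ∃ b, ∀ a, α a = b * a * b⁻¹)
    (hO : oddCore G = ⊥) (hp : commutator L = ⊤) (σ : L →* Gb) (hs : Function.Surjective σ)
    (hz : ∀ x, σ x = 1 ↔ x = 1 ∨ x = z) : f.range.Normal := by
  obtain ⟨g, k, H, hc, g14, hx⟩ := exists_syl2
  obtain ⟨ok, -⟩ := fmtOk_spec d2a_fmt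
  have hk : σ.ker = center L := by ext x; rw [MonoidHom.mem_ker, hz, h.cen]
  obtain ⟨t, ht, γ, hγ, Ga⟩ := exists_gaugeF (ts := [t0]) ⟨hs, hk.le, hp ▸ le_top⟩ hz h.z0_ne d2a_fmt
    (by decide +kernel) rfl rfl rfl H 8906625 (card_Gb.trans (by decide +kernel)) (by decide) hc.ge
    (As := d2a_A) (by decide +kernel) d2a_cert (by decide +kernel) d2a_rows (by decide +kernel) (by
      intro f hf
      have := hf 74020
      have e : parN d2.B d2a.m t0 (sp d2 d2a 74020) = 1 := by decide +kernel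
      simp only [d2a_A, List.mem_singleton, forall_eq, exists_eq_left, e]
      omega)
  obtain rfl := List.mem_singleton.1 ht
  have W : ∀ {u v b : ℕ}, colEq d2 2000 120 t0 u v b = true → evP γ u = evP γ v * z ^ b := fun c =>
    Ga.eq_of_col ok (by decide +kernel) (by decide +kernel) c
  have hσ : ∀ w, σ (evP γ w) = evP g w := fun w => by rw [map_evP]; simp only [hγ]
  have s1 : ∀ {j}, j < 64 → evP γ j = γ j := fun hj => H19.Cov.evP_single Ga.zero hj
  have cat := evP_cat Ga.zero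
  let S := (closure (g '' {i | 1 ≤ i ∧ i ≤ d2.n})).comap σ
  have mS : ∀ w, (∀ i ∈ Nat.digits 64 w, 1 ≤ i ∧ i ≤ d2.n) → evP γ w ∈ S := fun w hw => by
    show σ _ ∈ Subgroup.closure _
    rw [hσ]
    exact evP_mem fun i hi => subset_closure ⟨i, hw i hi, rfl⟩
  have idx : ¬ 2 ∣ (closure (g '' {i | 1 ≤ i ∧ i ≤ d2.n})).index := by
    have := (closure (g '' {i | 1 ≤ i ∧ i ≤ d2.n})).card_mul_index
    rw [hc, card_Gb] at this
    omega
  have pS : IsPGroup 2 S := (IsPGroup.of_card hc).comap_of_ker_isPGroup σ fun x =>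
    ⟨1, Subtype.ext (by
      rcases (hz x).1 x.2 with e | e <;> simp [e, pow_two, h.z0_sq])⟩
  obtain ⟨S', s1', s2', -, hmax⟩ := exists_syl_of_index (M := S) (S0 := S)
    (by rwa [index_comap_of_surjective _ hs]) le_rfl pS
  obtain rfl := le_antisymm s1' s2'
  have a2 : γ 14 * γ 14 = 1 := by
    have := W (u := 14 + 14 * 64 ^ 1) (v := 0) (b := 0) (by decide +kernel)
    rwa [cat 1 _ _ (by norm_num), s1 (by norm_num), evP_zero, pow_zero, mul_one] at this
  have za2 : z * γ 14 * (z * γ 14) = 1 := by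
    rw [mul_assoc, ← mul_assoc (γ 14), h.z0_comm, mul_assoc, a2, mul_one, h.z0_sq]
  have ac : ∀ s ∈ S, s * γ 14 = γ 14 * s := fun s hs' => by
    have e : closure (g '' {i | 1 ≤ i ∧ i ≤ d2.n}) = (closure (γ '' {i | 1 ≤ i ∧ i ≤ d2.n})).map σ := by
      rw [MonoidHom.map_closure, Set.image_image]; simp only [hγ]
    have hs2 : σ s ∈ Subgroup.closure _ := hs'
    rw [e] at hs2
    obtain ⟨s', h1, h2⟩ := hs2
    have h3 : closure (γ '' {i | 1 ≤ i ∧ i ≤ d2.n}) ≤ centralizer {γ 14} := by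
      rw [closure_le]
      rintro _ ⟨i, hi, rfl⟩
      have i14 : i < 15 := Nat.lt_succ_of_le hi.2
      have := W ((by decide +kernel : ∀ i < 15, 1 ≤ i →
        colEq d2 2000 120 t0 (i + 14 * 64 ^ 1) (14 + i * 64 ^ 1) 0 = true) i i14 hi.1)
      rw [cat 1 _ _ (by omega), cat 1 _ _ (by norm_num), s1 (j := 14) (by norm_num), s1 (j := i) (by omega), pow_zero,
        mul_one] at this
      exact mem_centralizer_singleton_iff.2 this
    have h4 := mem_centralizer_singleton_iff.1 (h3 h1)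
    rcases (hz (s * s'⁻¹)).1 (by simp [h2]) with a | a
    · rwa [mul_inv_eq_one.1 a]
    · rw [mul_inv_eq_iff_eq_mul.1 a, mul_assoc, h4, ← mul_assoc, ← h.z0_comm, mul_assoc]
  have b2 : evP γ 2126211 * evP γ 2126211 = z := by
    have := W (u := 2126211 + 2126211 * 64 ^ 4) (v := 0) (b := 1) (by decide +kernel)
    rwa [cat 4 _ _ (by norm_num), evP_zero, pow_one, one_mul] at this
  have zb2 : z * evP γ 2126211 * (z * evP γ 2126211) = z := by
    rw [mul_assoc, ← mul_assoc (evP γ _), h.z0_comm, mul_assoc, b2, h.z0_sq, mul_one]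
  have sqA : ∀ x : L, IsConj (σ x) (g 14) → x * x = 1 := fun x c => by
    obtain ⟨l, e⟩ := lift_conj hs hz (hγ 14 ▸ c)
    have : l * (x * x) * l⁻¹ = 1 := by
      rcases e with e | e <;> rw [← sq_conj e]
      exacts [a2, za2]
    simpa using this
  have cl : ∀ x : L, x * x = 1 ∨ x * x = z →
      σ x = 1 ∨ IsConj (σ x) (g 14) ∨ IsConj (σ x) (σ (evP γ 2126211)) := fun x x2 => by
    have e : σ x * σ x = 1 := by rw [← map_mul, hz]; exact x2
    obtain ⟨c, hc'⟩ := exists_conj_of_index (isPGroup_zpowers e) idx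
    have c1 : IsConj (σ x) (c * σ x * c⁻¹) := isConj_iff.2 ⟨c, rfl⟩
    rcases (hx _ (hc' _ (mem_zpowers _))).1 (by rw [sq_conj rfl, e]; group) with a | a | a
    · exact Or.inl (by simpa using a)
    · exact Or.inr (Or.inl (c1.trans a))
    · exact Or.inr (Or.inr (hσ _ ▸ c1.trans a))
  have nf : ∀ a w : L, (∀ s ∈ S, s * a = a * s) → σ a = g 14 → w ∈ S → w * w * (w * w) = a →
      ¬ Fus f z a := fun a w ha e hw w4 hF => by
    obtain ⟨c, c1, c2⟩ := h.syl_aut hout pS hmax ha (fun e' => g14 (by rw [← e, e', hz]; simp)) hF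
      fun s hs' e' => by
        have c : ∀ i, 1 ≤ i → i ≤ 3 → σ s * g i = g i * σ s := fun i h1 h2 => by
          rw [← hγ, ← map_mul, ← map_mul, e' _ (s1 (j := i) (by omega) ▸ mS i (by
            interval_cases i <;> decide +kernel))]
        rcases (hx _ hs').2.2 (c 1 (by norm_num) (by norm_num)) (c 2 (by norm_num) (by norm_num))
          (c 3 (by norm_num) (by norm_num)) with a | a
        · rcases (hz s).1 a with rfl | rfl
          exacts [mul_one _, h.z0_sq]
        · exact sqA s (a ▸ IsConj.refl _)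
    obtain ⟨w', hw', e1⟩ := c2 w hw
    have e2 : w' * w' * (w' * w') = z := h.inj (by
      rw [← c1, ← w4]; simp only [map_mul, ← e1]; group)
    rcases (hx _ hw').2.1 (by simp only [← map_mul]; rw [e2, hz]; simp) with a | a
    · rcases (hz _).1 (map_mul σ _ _ ▸ a) with a | a <;> rw [a] at e2
      · exact h.z0_ne (by simpa using e2.symm)
      · exact h.z0_ne (e2.symm.trans h.z0_sq)
    · exact h.z0_ne (e2.symm.trans (sqA _ (map_mul σ _ _ ▸ a)))
  refine h.normal_of hout hO (fun b hb hF => ?_) fun a ha => ?_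
  · rcases cl b (Or.inl hb) with a | a | a
    · exact ((hz b).1 a).resolve_left (hF.ne_one h)
    · exfalso
      obtain ⟨l, e | e⟩ := lift_conj hs hz (hγ 14 ▸ a)
      · refine nf _ (evP γ 2) ac (hγ 14) (mS _ (by decide +kernel)) ?_ (hF.conj e)
        have := W (u := 2 + 2 * 64 ^ 1 + (2 + 2 * 64 ^ 1) * 64 ^ 2) (v := 14) (b := 0) (by decide +kernel)
        rwa [cat 2 _ _ (by norm_num), cat 1 _ _ (by norm_num), s1 (j := 14) (by norm_num), pow_zero,
          mul_one] at this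
      · refine nf _ (evP γ 388) (fun s hs' => by rw [← mul_assoc, h.z0_comm, mul_assoc, ac s hs', mul_assoc])
          (by rw [map_mul, hγ, (hz z).2 (Or.inr rfl), one_mul]) (mS _ (by decide +kernel)) ?_ (hF.conj e)
        have := W (u := 388 + 388 * 64 ^ 2 + (388 + 388 * 64 ^ 2) * 64 ^ 4) (v := 14) (b := 1)
          (by decide +kernel)
        rwa [cat 4 _ _ (by norm_num), cat 2 _ _ (by norm_num), s1 (j := 14) (by norm_num), pow_one,
          h.z0_comm] at this
    · exfalso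
      obtain ⟨l, e⟩ := lift_conj hs hz a
      refine h.z0_ne ?_
      rcases e with e | e <;> have := sq_conj e <;> rw [hb, mul_one, mul_inv_cancel] at this
      exacts [b2.symm.trans this, zb2.symm.trans this]
  have cB : ∀ a : L, a * a = z → ∃ l, l * a * l⁻¹ = evP γ 2126211 := fun a ha => by
    rcases cl a (Or.inr ha) with c | c | c
    · exfalso
      rcases (hz a).1 c with rfl | rfl
      · exact h.z0_ne (by simpa using ha.symm)
      · exact h.z0_ne (ha.symm.trans h.z0_sq)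
    · exact absurd (ha.symm.trans (sqA a c)) h.z0_ne
    · obtain ⟨l, e | e⟩ := lift_conj hs hz c
      · exact ⟨l, e⟩
      · have := W (u := 647 + 2126211 * 64 ^ 2) (v := 2126211 + 647 * 64 ^ 4) (b := 1) (by decide +kernel)
        rw [cat 2 _ _ (by norm_num), cat 4 _ _ (by norm_num), pow_one] at this
        refine ⟨evP γ 647 * l, ?_⟩
        rw [show evP γ 647 * l * a * (evP γ 647 * l)⁻¹ = evP γ 647 * (l * a * l⁻¹) * (evP γ 647)⁻¹ by group,
          e, ← h.z0_comm, ← mul_assoc, this, mul_assoc _ z z, h.z0_sq, mul_one, mul_inv_cancel_right]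
  obtain ⟨l, e⟩ := cB a ha
  have u1 := W (u := 3 + 2126211 * 64 ^ 1) (v := 2126211 + 3 * 64 ^ 4) (b := 0) (by decide +kernel)
  have u2 := W (u := 45640 + 2126211 * 64 ^ 3) (v := 2126211 + 45640 * 64 ^ 4) (b := 0) (by decide +kernel)
  have u3 := W (u := 3 + 45640 * 64 ^ 1) (v := 14 + (45640 + 3 * 64 ^ 3) * 64 ^ 1) (b := 1) (by decide +kernel)
  rw [cat 1 _ _ (by norm_num), cat 4 _ _ (by norm_num), pow_zero, mul_one] at u1
  rw [cat 3 _ _ (by norm_num), cat 4 _ _ (by norm_num), pow_zero, mul_one] at u2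
  rw [cat 1 _ _ (by norm_num), cat 1 _ _ (by norm_num), cat 3 _ _ (by norm_num), pow_one, h.z0_comm,
    s1 (j := 14) (by norm_num)] at u3
  have hb : evP γ 2126211 ∈ S := mS _ (by decide +kernel)
  obtain ⟨m, hm⟩ := cB (evP γ 2126211 * (z * γ 14)) (by
    have : z * γ 14 * evP γ 2126211 = evP γ 2126211 * (z * γ 14) := by
      rw [mul_assoc, ← ac _ hb, ← mul_assoc, ← h.z0_comm, mul_assoc]
    rw [mul_assoc, ← mul_assoc (z * γ 14), this, mul_assoc _ (z * γ 14), za2, mul_one, b2])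
  have ea : a = l⁻¹ * evP γ 2126211 * l := by rw [← e]; group
  refine ⟨l⁻¹ * evP γ 3 * l, l⁻¹ * evP γ 45640 * l, l⁻¹ * m⁻¹ * l, l⁻¹ * (z * γ 14) * l, ?_, ?_, ?_, ?_, ?_, ?_⟩
  · rw [ea]
    calc _ = l⁻¹ * (evP γ 3 * evP γ 2126211) * l := by group
      _ = _ := by rw [u1]; group
  · rw [ea]
    calc _ = l⁻¹ * (evP γ 45640 * evP γ 2126211) * l := by group
      _ = _ := by rw [u2]; group
  · calc _ = l⁻¹ * (z * (γ 14 * (evP γ 45640 * evP γ 3))) * (evP γ 3)⁻¹ * (evP γ 45640)⁻¹ * l := by group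
      _ = _ := by rw [← u3]; group
  · intro c
    have : z * γ 14 = 1 := by
      calc _ = l * (l⁻¹ * (z * γ 14) * l) * l⁻¹ := by group
        _ = 1 := by rw [c]; group
    exact g14 (by rw [← hγ, eq_inv_of_mul_eq_one_right this, map_inv, (hz z).2 (Or.inr rfl), inv_one])
  · calc _ = l⁻¹ * (z * γ 14 * (z * γ 14)) * l := by group
      _ = _ := by rw [za2]; group
  · rw [ea]
    nth_rewrite 1 [← hm]
    group

end Ru

end H10.Std
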